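import Cfsg.Agent.Lib.ToddCox.A6T.Data
set_option autoImplicit false
set_option maxRecDepth 100000
namespace Cfsg.Agent.Lib.ToddCox.A6T
theorem wordsGood : allBelow (wordsOK W (relR Rb inv) inv sp) nW 4 = true := by decide +kernel
theorem d0 : allBits (fun k => bif Nat.blt k 5 then chkDef Eo inv k else true) 13 0 = true := by decide +kernel
theorem s0 : chkStream Eo inv W isH 13 5 0x4000006800000e000009000004000006000000e000008000004000001000002a000005000003800001c000010000007000003000001000002c00000500000280000100000040000120000018000014000008000002000000000003c0000020000030000018000008000020000003000001000000000001a00000100000080000000000140000010000007ffffffffffffffffff = true := by decide +kernel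
theorem c0 : Covered Eo inv W isH 5 18 := covered_of_stream 13 5 _ s0
theorem l0 : chkPoints Eo cF (2 * nEv) N ys 6 0 0xe0000010000044000004000010000001000003c000004000004800000c00000e000003000011800001400004200000500000f800001400003a000005000004000001400003600000300000c800000c00000a000002000003000001000002a00000200000b8000008000006000001000002000000c000028000002000008800000400000200000000000100000080000260000010000080000004000016000000000000000000400001c0000000000060000000000014000000 = true := by decide +kernel
theorem k0 : LinksOK Eo cF (2 * nEv) N ys 0 6 := linksOK_of_points 6 0 _ l0
end Cfsg.Agent.Lib.ToddCox.A6T
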