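import Cfsg.Agent.Lib.ToddCox.A6T.Tab
set_option autoImplicit false
set_option maxRecDepth 100000
namespace Cfsg.Agent.Lib.ToddCox.A6T
theorem a0 : allBits chkAll 10 0 = true := by decide +kernel
end Cfsg.Agent.Lib.ToddCox.A6T
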