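import Cfsg.Agent.Lib.ToddCox.A6T.TabD0
set_option autoImplicit false
set_option maxRecDepth 100000
namespace Cfsg.Agent.Lib.ToddCox.A6T
def tT_0_2 (j : ℕ) : ℕ := bif Nat.blt j 1 then T_0 else T_1
def tT_3_5 (j : ℕ) : ℕ := bif Nat.blt j 4 then T_3 else T_4
def tT_2_5 (j : ℕ) : ℕ := bif Nat.blt j 3 then T_2 else (tT_3_5 j)
def tT_0_5 (j : ℕ) : ℕ := bif Nat.blt j 2 then (tT_0_2 j) else (tT_2_5 j)
def tT (j : ℕ) : ℕ := (tT_0_5 j)
noncomputable def tC (h : ℕ) : ℕ := Nat.rec (motive := fun _ => ℕ) (tT 0) (fun n _ => tT (Nat.succ n)) h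
noncomputable def tab (y i : ℕ) : ℕ := Nat.land (Nat.shiftRight (tC (Nat.add (Nat.mul y 1) (Nat.shiftRight i 8))) (Nat.mul (Nat.land i 255) 18)) 262143
def prT (j : ℕ) : ℕ := nat_lit 0x40000000302000002040000010c00000000000000
noncomputable def prC (h : ℕ) : ℕ := Nat.rec (motive := fun _ => ℕ) (prT 0) (fun n _ => prT (Nat.succ n)) h
noncomputable def pr (i : ℕ) : ℕ := Nat.land (Nat.shiftRight (prC (Nat.shiftRight i 7)) (Nat.mul (Nat.land i 127) 32)) 4294967295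
def invR (y : ℕ) : ℕ := invOf 0xc2044 y
def Rc : List (List ℕ) := [[nat_lit 0, nat_lit 0, nat_lit 0],
  [nat_lit 1, nat_lit 1],
  [nat_lit 2, nat_lit 2],
  [nat_lit 3, nat_lit 3],
  [nat_lit 1, nat_lit 0, nat_lit 1, nat_lit 0, nat_lit 1, nat_lit 0],
  [nat_lit 2, nat_lit 0, nat_lit 2, nat_lit 0],
  [nat_lit 3, nat_lit 0, nat_lit 3, nat_lit 0],
  [nat_lit 2, nat_lit 1, nat_lit 2, nat_lit 1, nat_lit 2, nat_lit 1],
  [nat_lit 3, nat_lit 1, nat_lit 3, nat_lit 1],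
  [nat_lit 3, nat_lit 2, nat_lit 3, nat_lit 2, nat_lit 3, nat_lit 2]]
def Tw : List (List ℕ) := [[nat_lit 0],
  [nat_lit 1],
  [nat_lit 2],
  [nat_lit 0],
  [nat_lit 1],
  [nat_lit 2],
  [nat_lit 3]]
def Sw : List (List ℕ) := [[nat_lit 0],
  [nat_lit 1],
  [nat_lit 2]]
def ysR : List ℕ := [nat_lit 0, nat_lit 1, nat_lit 2, nat_lit 3, nat_lit 4]
noncomputable def chkAll (i : ℕ) : Bool := bif Nat.blt i 6 then and (chkPt tab invR 6 ysR Rc i) (bif Nat.beq i 0 then true else chkReachPt tab Tw i (pr i)) else true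
end Cfsg.Agent.Lib.ToddCox.A6T
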