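import Cfsg.Agent.Lib.ToddCox.Rep
set_option autoImplicit false
set_option maxRecDepth 100000
namespace Cfsg.Agent.Lib.ToddCox.A6T
def T_0 : ℕ := 0xc0005000100002000040000
def T_1 : ℕ := 0x100005000080003000040000
def T_2 : ℕ := 0x1000050000c0001000080000
def T_3 : ℕ := 0x1000050000c0002000000001
def T_4 : ℕ := 0x100003000140002000040000
end Cfsg.Agent.Lib.ToddCox.A6T
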